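import Cfsg.Agent.ThreeInvolutions.NormalFour
import Cfsg.Agent.Involutions.SelfCentralizingFour
import Cfsg.Agent.Transfer.ThompsonTransfer
import Cfsg.Agent.ZStar.Theorem
import Cfsg.Agent.ZStar.Corollaries

/-!
Simple groups with an involution whose centraliser contains at most three involutions.
-/

set_option autoImplicit false

namespace CfsgLib.ThreeInvolutions

universe u

variable {G : Type u} [Group G]

/-- Every involution commuting with `x` lies in a four group through `x`. -/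
def Three (x : G) : Prop :=
  ∀ a u : G, orderOf a = 2 → orderOf u = 2 → Commute x a → Commute x u → a ≠ x →
    u = x ∨ u = a ∨ u = x * a

theorem sq_one {t : G} (ht : orderOf t = 2) : t * t = 1 := by
  rw [← pow_two, ← ht, pow_orderOf_eq_one]

theorem inv_self {t : G} (ht : orderOf t = 2) : t⁻¹ = t :=
  inv_eq_of_mul_eq_one_right (sq_one ht)

theorem ne_one {t : G} (ht : orderOf t = 2) : t ≠ 1 := by
  rintro rfl
  rw [orderOf_one] at ht
  omega

theorem orderOf_conj' (g t : G) : orderOf (g * t * g⁻¹) = orderOf t :=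
  MulEquiv.orderOf_eq (MulAut.conj g) t

theorem commute_conj (g : G) {a b : G} (h : Commute a b) :
    Commute (g * a * g⁻¹) (g * b * g⁻¹) := h.map (MulAut.conj g).toMonoidHom

theorem orderOf_mul_of_commute {a b : G} (ha : orderOf a = 2) (hb : orderOf b = 2)
    (h : Commute a b) (hne : a ≠ b) : orderOf (a * b) = 2 := by
  refine orderOf_eq_prime ?_ ?_
  · rw [h.mul_pow, pow_two, pow_two, sq_one ha, sq_one hb, one_mul]
  · intro e
    rw [mul_eq_one_iff_eq_inv, inv_self hb] at e
    exact hne e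

theorem three_of_card [Finite G] {x : G} (hx : orderOf x = 2)
    (h3 : Nat.card {u : ↥(Subgroup.centralizer ({x} : Set G)) // orderOf u = 2} ≤ 3) : Three x := by
  intro a u ha hu hxa hxu hne
  classical
  by_contra hcon
  push Not at hcon
  obtain ⟨h1, h2, h4⟩ := hcon
  have hmem : ∀ w : G, Commute x w → w ∈ Subgroup.centralizer ({x} : Set G) := fun w hw =>
    Subgroup.mem_centralizer_singleton_iff.mpr hw.eq.symm
  have hxao := orderOf_mul_of_commute hx ha hxa hne.symm
  have hxa1 : x * a ≠ x := fun e => ne_one ha (mul_left_cancel (a := x) (by rw [e, mul_one]))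
  have hxa2 : x * a ≠ a := fun e => ne_one hx (mul_right_cancel (b := a) (by rw [e, one_mul]))
  have hs : ∀ w ∈ ({x, a, x * a, u} : Finset G),
      ∃ h : w ∈ Subgroup.centralizer ({x} : Set G),
        orderOf (⟨w, h⟩ : ↥(Subgroup.centralizer ({x} : Set G))) = 2 := by
    intro w hw
    simp only [Finset.mem_insert, Finset.mem_singleton] at hw
    rcases hw with rfl | rfl | rfl | rfl
    · exact ⟨hmem _ (Commute.refl _), by rw [Subgroup.orderOf_mk]; exact hx⟩
    · exact ⟨hmem _ hxa, by rw [Subgroup.orderOf_mk]; exact ha⟩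
    · exact ⟨hmem _ ((Commute.refl x).mul_right hxa), by rw [Subgroup.orderOf_mk]; exact hxao⟩
    · exact ⟨hmem _ hxu, by rw [Subgroup.orderOf_mk]; exact hu⟩
  have hle := Nat.card_le_card_of_injective
    (fun w : ↥({x, a, x * a, u} : Finset G) =>
      (⟨⟨w.1, (hs w.1 w.2).1⟩, (hs w.1 w.2).2⟩ :
        {v : ↥(Subgroup.centralizer ({x} : Set G)) // orderOf v = 2}))
    (fun v w e => Subtype.ext (congrArg (fun q :
      {v : ↥(Subgroup.centralizer ({x} : Set G)) // orderOf v = 2} => ((q.1 : G))) e))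
  rw [Nat.card_eq_fintype_card, Fintype.card_coe] at hle
  have hc : ({x, a, x * a, u} : Finset G).card = 4 := by
    simp [hne.symm, hxa1.symm, hxa2.symm, h1.symm, h2.symm, h4.symm]
  omega

theorem three_conj {x : G} (h : Three x) (c : G) : Three (c * x * c⁻¹) := by
  intro a u ha hu hxa hxu hne
  have e : ∀ w : G, c⁻¹ * (c * w * c⁻¹) * c⁻¹⁻¹ = w := fun w => by group
  have h1 := commute_conj c⁻¹ hxa
  have h2 := commute_conj c⁻¹ hxu
  rw [e] at h1 h2
  have back : ∀ w : G, w = c * (c⁻¹ * w * c⁻¹⁻¹) * c⁻¹ := fun w => by group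
  rcases h (c⁻¹ * a * c⁻¹⁻¹) (c⁻¹ * u * c⁻¹⁻¹) (by rw [orderOf_conj', ha])
    (by rw [orderOf_conj', hu]) h1 h2 (fun q => hne (by rw [back a, q])) with q | q | q
  · exact .inl (by rw [back u, q])
  · refine .inr (.inl ?_)
    rw [back u, q, ← back a]
  · refine .inr (.inr ?_)
    rw [back u, q]; group

variable [Finite G]

/-- In a nonabelian simple group no involution is isolated in a Sylow 2-subgroup. -/
theorem exists_fused [IsSimpleGroup G] (hna : ¬ IsMulCommutative G) (P : Sylow 2 G) {t : G}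
    (ht : orderOf t = 2) :
    ∃ g : G, g * t * g⁻¹ ∈ P ∧ g * t * g⁻¹ ≠ t := by
  by_contra hcon
  push Not at hcon
  have hZ := CfsgLib.ZStar.inZStar_of_no_fusion ht P hcon
  have hO : Cfsg.pPrimeCore 2 G = ⊥ := by
    rcases IsSimpleGroup.eq_bot_or_eq_top_of_normal (Cfsg.pPrimeCore 2 G) inferInstance with h | h
    · exact h
    · exfalso
      have h2 : ¬ 2 ∣ Nat.card (Cfsg.pPrimeCore 2 G) := Constrained.pPrimeCore_not_dvd
      rw [h, Subgroup.card_top] at h2
      exact h2 (ht ▸ orderOf_dvd_natCard t)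
  have hc := CfsgLib.ZStar.mem_center_of_inZStar hO hZ
  rcases IsSimpleGroup.eq_bot_or_eq_top_of_normal (Subgroup.center G) inferInstance with h | h
  · rw [h, Subgroup.mem_bot] at hc
    exact ne_one ht hc
  · exact hna ⟨⟨fun a b => Subgroup.mem_center_iff.mp (h ▸ Subgroup.mem_top b) a⟩⟩

theorem index_ne_two [IsSimpleGroup G] (hna : ¬ IsMulCommutative G) (K : Subgroup G) [K.Normal] :
    K.index ≠ 2 := by
  intro hK
  rcases IsSimpleGroup.eq_bot_or_eq_top_of_normal K inferInstance with h | h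
  · rw [h, Subgroup.index_bot] at hK
    haveI : IsCyclic G := isCyclic_of_prime_card hK
    exact hna ⟨⟨fun a b => (IsCyclic.commGroup).mul_comm a b⟩⟩
  · rw [h, Subgroup.index_top] at hK
    omega

/-- A Thompson transfer step. -/
theorem exists_conj_mem [IsSimpleGroup G] (hna : ¬ IsMulCommutative G) (S : Sylow 2 G)
    (M : Subgroup ↥(S : Subgroup G)) (hM : M.index = 2) {x : G} (hx : orderOf x = 2)
    (hxS : x ∈ (S : Subgroup G)) (hxM : (⟨x, hxS⟩ : ↥(S : Subgroup G)) ∉ M) :
    ∃ (g : G) (h : g * x * g⁻¹ ∈ (S : Subgroup G)), (⟨_, h⟩ : ↥(S : Subgroup G)) ∈ M := by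
  have hrel : (M.map (S : Subgroup G).subtype).relIndex (S : Subgroup G) = 2 := by
    rw [Subgroup.relIndex, Subgroup.subgroupOf,
      Subgroup.comap_map_eq_self_of_injective Subtype.val_injective, hM]
  rcases CfsgLib.Transfer.thompsonTransferLemma S _ (Subgroup.map_subtype_le M) hrel x hx hxS
    (fun ⟨m, hm, he⟩ => hxM (by
      rwa [show (⟨x, hxS⟩ : ↥(S : Subgroup G)) = m from Subtype.ext he.symm]))
    with ⟨K, hKn, hK, -⟩ | ⟨g, m, hm, he⟩
  · exact absurd hK (by haveI := hKn; exact index_ne_two hna K)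
  · have hh : g * x * g⁻¹ ∈ (S : Subgroup G) := by rw [← he]; exact m.2
    exact ⟨g, hh, by rwa [show (⟨_, hh⟩ : ↥(S : Subgroup G)) = m from Subtype.ext he.symm]⟩

/-- No conjugate of `x` is central in a Sylow 2-subgroup. -/
def NoCentral (x : G) : Prop :=
  ∀ (g : G) (S : Sylow 2 G), ¬ (S : Subgroup G) ≤ Subgroup.centralizer ({g * x * g⁻¹} : Set G)

theorem no_cyclic [IsSimpleGroup G] (hna : ¬ IsMulCommutative G) (S : Sylow 2 G) {x : G}
    (hx : orderOf x = 2) (hns : NoCentral x) (hxS : x ∈ (S : Subgroup G))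
    (M : Subgroup ↥(S : Subgroup G)) (hM : M.index = 2) (hMc : IsCyclic M) : False := by
  haveI : M.Normal := Subgroup.normal_of_index_eq_two hM
  haveI := hMc
  have hcen : ∀ (g : G) (h : g * x * g⁻¹ ∈ (S : Subgroup G)),
      (⟨_, h⟩ : ↥(S : Subgroup G)) ∉ M := by
    intro g h hm
    refine hns g S fun s hs => ?_
    rw [Subgroup.mem_centralizer_singleton_iff]
    have ho : orderOf (⟨_, h⟩ : ↥(S : Subgroup G)) = 2 := by
      rw [Subgroup.orderOf_mk, orderOf_conj', hx]
    have hm' := Subgroup.Normal.conj_mem (H := M) inferInstance _ hm ⟨s, hs⟩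
    have e := congrArg (fun q : ↥M => ((q : ↥(S : Subgroup G)) : G))
      (SelfCentralizingFour.eq_of_orderOf_two_of_isCyclic (P := ↥M) (a := ⟨_, hm'⟩)
        (b := ⟨_, hm⟩) (by rw [← Subgroup.orderOf_coe, orderOf_conj', ho])
        (by rw [← Subgroup.orderOf_coe, ho]))
    exact mul_inv_eq_iff_eq_mul.mp e
  have hxM : (⟨x, hxS⟩ : ↥(S : Subgroup G)) ∉ M := by
    have h1 : (1 : G) * x * 1⁻¹ = x := by group
    intro hm
    exact hcen 1 (by rwa [h1]) (by
      rwa [show (⟨(1 : G) * x * 1⁻¹, by rwa [h1]⟩ : ↥(S : Subgroup G)) = ⟨x, hxS⟩ from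
        Subtype.ext h1])
  obtain ⟨g, h, hm⟩ := exists_conj_mem hna S M hM hx hxS hxM
  exact hcen g h hm

theorem card_centralizer_eq_four [IsSimpleGroup G] (hna : ¬ IsMulCommutative G) (S : Sylow 2 G)
    {x y : G} (hx : orderOf x = 2) (hns : NoCentral x) (hxS : x ∈ (S : Subgroup G))
    (hy : orderOf y = 2) (hyS : y ∈ (S : Subgroup G))
    (hy4 : Nat.card (Subgroup.centralizer ({(⟨y, hyS⟩ : ↥(S : Subgroup G))} : Set _)) = 4)
    (hync : ¬ ∀ s ∈ (S : Subgroup G), Commute s y) : False := by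
  have h8 : 8 ≤ Nat.card (S : Subgroup G) := by
    obtain ⟨n, hn⟩ := IsPGroup.iff_card.mp S.2
    rw [hn]
    have hlt : 4 < Nat.card (S : Subgroup G) := by
      rw [← hy4]
      refine lt_of_le_of_ne (Subgroup.card_le_card_group _) fun e => hync fun s hs => ?_
      have : (⟨s, hs⟩ : ↥(S : Subgroup G)) ∈
          Subgroup.centralizer ({(⟨y, hyS⟩ : ↥(S : Subgroup G))} : Set _) := by
        rw [Subgroup.eq_top_of_card_eq _ e]; exact Subgroup.mem_top _
      exact congrArg Subtype.val (Subgroup.mem_centralizer_singleton_iff.mp this)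
    rw [hn] at hlt
    rcases n with _ | _ | _ | n
    · norm_num at hlt
    · norm_num at hlt
    · norm_num at hlt
    · exact le_trans (by norm_num) (Nat.pow_le_pow_right (by norm_num) (show 3 ≤ n + 3 by omega))
  obtain ⟨M, hM, hMc, -⟩ := SelfCentralizingFour.exists_cyclic_index_two _
    (↥(S : Subgroup G)) rfl S.2 ⟨y, hyS⟩ (by rw [Subgroup.orderOf_mk]; exact hy) hy4 h8
  exact no_cyclic hna S hx hns hxS M hM hMc

theorem exists_central_involution (S : Sylow 2 G) {x : G} (hx : orderOf x = 2)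
    (hxS : x ∈ (S : Subgroup G)) :
    ∃ z ∈ (S : Subgroup G), orderOf z = 2 ∧ ∀ s ∈ (S : Subgroup G), Commute s z := by
  haveI : Nontrivial ↥(S : Subgroup G) :=
    ⟨⟨⟨x, hxS⟩, 1, fun e => ne_one hx (congrArg Subtype.val e)⟩⟩
  obtain ⟨c, hc, hcard⟩ := ((S.2.to_subgroup (Subgroup.center ↥(S : Subgroup G))).nontrivial_iff_card).mp
    S.2.center_nontrivial
  obtain ⟨z, hz⟩ := exists_prime_orderOf_dvd_card' (G := Subgroup.center ↥(S : Subgroup G)) 2
    (hcard ▸ dvd_pow_self 2 hc.ne')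
  refine ⟨((z : ↥(S : Subgroup G)) : G), (z : ↥(S : Subgroup G)).2, ?_, fun s hs => ?_⟩
  · rw [Subgroup.orderOf_coe, Subgroup.orderOf_coe, hz]
  · exact congrArg Subtype.val (Subgroup.mem_center_iff.mp z.2 ⟨s, hs⟩)

/-- Facts about `x` in a Sylow 2-subgroup with central involution `z`. -/
theorem local_facts [IsSimpleGroup G] (hna : ¬ IsMulCommutative G) (S : Sylow 2 G) {x z : G}
    (hx : orderOf x = 2) (hns : NoCentral x) (h3 : Three x) (hxS : x ∈ (S : Subgroup G))
    (hz : orderOf z = 2) (hzc : ∀ s ∈ (S : Subgroup G), Commute s z) :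
    z ≠ x ∧ (∀ w, orderOf w = 2 → Commute x w → w = x ∨ w = z ∨ w = x * z) ∧
      (∀ g : G, g * z * g⁻¹ ≠ x ∧ g * z * g⁻¹ ≠ x * z) := by
  have hnot : ∀ g : G, g * x * g⁻¹ ≠ z := fun g e => hns g S fun s hs => by
    rw [Subgroup.mem_centralizer_singleton_iff, e]; exact (hzc s hs).eq
  have hzx : z ≠ x := fun e => hnot 1 (by rw [e]; group)
  have hxz : Commute x z := hzc x hxS
  have hlist : ∀ w, orderOf w = 2 → Commute x w → w = x ∨ w = z ∨ w = x * z :=
    fun w hw hc => h3 z w hz hw hxz hc hzx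
  refine ⟨hzx, hlist, ?_⟩
  -- `x` is conjugate to `x * z`
  obtain ⟨k, hk⟩ : ∃ k : G, k * x * k⁻¹ = x * z := by
    by_contra hcon
    push Not at hcon
    have hiso : Cfsg.IsIsolated x := fun g hc => by
      rcases hlist _ (by rw [orderOf_conj', hx]) hc with e | e | e
      · exact e
      · exact absurd e (hnot g)
      · exact absurd e (hcon g)
    obtain ⟨g, hgS, hg⟩ := exists_fused hna S hx
    have hZ := CfsgLib.ZStar.inZStar_of_isolated hx hiso
    have hO : Cfsg.pPrimeCore 2 G = ⊥ := by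
      rcases IsSimpleGroup.eq_bot_or_eq_top_of_normal (Cfsg.pPrimeCore 2 G) inferInstance with h | h
      · exact h
      · exfalso
        have h2 : ¬ 2 ∣ Nat.card (Cfsg.pPrimeCore 2 G) := Constrained.pPrimeCore_not_dvd
        rw [h, Subgroup.card_top] at h2
        exact h2 (hx ▸ orderOf_dvd_natCard x)
    have hc := CfsgLib.ZStar.mem_center_of_inZStar hO hZ
    exact hg (by rw [Subgroup.mem_center_iff.mp hc g, mul_inv_cancel_right])
  intro g
  refine ⟨fun e => hnot g⁻¹ (by rw [← e]; group), fun e => hnot (g⁻¹ * k) ?_⟩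
  rw [show g⁻¹ * k * x * (g⁻¹ * k)⁻¹ = g⁻¹ * (k * x * k⁻¹) * g by group, hk, ← e]
  group

theorem contra_normal [IsSimpleGroup G] (hna : ¬ IsMulCommutative G) (S : Sylow 2 G) {x z : G}
    (hx : orderOf x = 2) (hns : NoCentral x) (h3 : Three x) (hxS : x ∈ (S : Subgroup G))
    (hz : orderOf z = 2) (hzS : z ∈ (S : Subgroup G))
    (hzc : ∀ s ∈ (S : Subgroup G), Commute s z)
    (hnorm : ∀ s ∈ (S : Subgroup G), s * x * s⁻¹ = x ∨ s * x * s⁻¹ = x * z) : False := by
  obtain ⟨hzx, hlist, hnz⟩ := local_facts hna S hx hns h3 hxS hz hzc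
  obtain ⟨g, hyS, hyz⟩ := exists_fused hna S hz
  set y := g * z * g⁻¹ with hy_def
  have hy : orderOf y = 2 := by rw [hy_def, orderOf_conj', hz]
  have hxy : ¬ Commute x y := fun hc => by
    rcases hlist y hy hc with e | e | e
    · exact (hnz g).1 e
    · exact hyz e
    · exact (hnz g).2 e
  have hconjy : y * x * y⁻¹ = x * z := (hnorm y hyS).resolve_left fun e =>
    hxy (mul_inv_eq_iff_eq_mul.mp e).symm
  -- products of two elements moving `x` fix it
  have htwo : ∀ s ∈ (S : Subgroup G), ¬ Commute s x → Commute (s * y) x := by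
    intro s hs hsx
    have e : s * x * s⁻¹ = x * z := (hnorm s hs).resolve_left fun e =>
      hsx (mul_inv_eq_iff_eq_mul.mp e)
    refine mul_inv_eq_iff_eq_mul.mp ?_
    rw [show s * y * x * (s * y)⁻¹ = s * (y * x * y⁻¹) * s⁻¹ by group, hconjy,
      show s * (x * z) * s⁻¹ = (s * x * s⁻¹) * (s * z * s⁻¹) by group, e,
      (hzc s hs).eq, mul_inv_cancel_right, mul_assoc, sq_one hz, mul_one]
  have hsq : ∀ s ∈ (S : Subgroup G), Commute (s * s) x := by
    intro s hs
    by_cases hsx : Commute s x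
    · exact hsx.mul_left hsx
    · have h1 := htwo s hs hsx
      have h2 := htwo s⁻¹ (inv_mem hs) (fun h => hsx (by simpa using h.inv_left))
      have h4 := h1.mul_left h2.inv_left
      rwa [show s * y * (s⁻¹ * y)⁻¹ = s * (y * y⁻¹) * s by group, mul_inv_cancel, mul_one] at h4
  by_cases h4 : Nat.card (Subgroup.centralizer ({(⟨y, hyS⟩ : ↥(S : Subgroup G))} : Set _)) = 4
  · exact card_centralizer_eq_four hna S hx hns hxS hy hyS h4
      fun hall => hxy (hall x hxS)
  -- an element of order four squaring to `z` and centralising `y`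
  classical
  set Cy := Subgroup.centralizer ({(⟨y, hyS⟩ : ↥(S : Subgroup G))} : Set ↥(S : Subgroup G))
  have hsub : ∀ w : G, (hw : w ∈ (S : Subgroup G)) → Commute w y → (⟨w, hw⟩ : ↥(S : Subgroup G)) ∈ Cy :=
    fun w hw hc => Subgroup.mem_centralizer_singleton_iff.mpr (Subtype.ext hc.eq)
  obtain ⟨c, hc, hcnot⟩ : ∃ c : ↥(S : Subgroup G), c ∈ Cy ∧
      (c : G) ∉ ({1, z, y, z * y} : Finset G) := by
    by_contra hall
    push Not at hall
    apply h4
    haveI := Fintype.ofFinite ↥Cy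
    have hzy : Commute z y := (hzc y hyS).symm
    have hscard : ({1, z, y, z * y} : Finset G).card = 4 := by
      have h1 : z * y ≠ 1 := fun e => hyz.symm (by
        rw [mul_eq_one_iff_eq_inv, inv_self hy] at e; exact e)
      have h2 : z * y ≠ z := fun e => ne_one hy (mul_left_cancel (a := z) (by rw [e, mul_one]))
      have h5 : z * y ≠ y := fun e => ne_one hz (mul_right_cancel (b := y) (by rw [e, one_mul]))
      simp [(ne_one hz).symm, (ne_one hy).symm, h1.symm, h2.symm, h5.symm, hyz.symm]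
    refine le_antisymm ?_ ?_
    · rw [Nat.card_eq_fintype_card, ← hscard, ← Fintype.card_coe]
      exact Fintype.card_le_of_injective (fun q : ↥Cy => ⟨((q : ↥(S : Subgroup G)) : G), hall q q.2⟩)
        fun a b e => Subtype.ext (Subtype.ext
          (congrArg (fun w : ↥({1, z, y, z * y} : Finset G) => (w : G)) e))
    · rw [← hscard, ← Fintype.card_coe, Nat.card_eq_fintype_card]
      have hm : ∀ w ∈ ({1, z, y, z * y} : Finset G), w ∈ (S : Subgroup G) ∧ Commute w y := by
        intro w hw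
        simp only [Finset.mem_insert, Finset.mem_singleton] at hw
        rcases hw with rfl | rfl | rfl | rfl
        · exact ⟨one_mem _, Commute.one_left _⟩
        · exact ⟨hzS, hzy⟩
        · exact ⟨hyS, Commute.refl _⟩
        · exact ⟨mul_mem hzS hyS, hzy.mul_left (Commute.refl _)⟩
      exact Fintype.card_le_of_injective
        (fun w : ↥({1, z, y, z * y} : Finset G) =>
          (⟨⟨w.1, (hm w.1 w.2).1⟩, hsub _ (hm w.1 w.2).1 (hm w.1 w.2).2⟩ : ↥Cy))
        fun a b e => Subtype.ext (congrArg (fun q : ↥Cy => ((q : ↥(S : Subgroup G)) : G)) e)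
  simp only [Finset.mem_insert, Finset.mem_singleton, not_or] at hcnot
  obtain ⟨hc1, hcz, hcy, hczy⟩ := hcnot
  have hcyc : Commute (c : G) y := congrArg Subtype.val (Subgroup.mem_centralizer_singleton_iff.mp hc)
  obtain ⟨r, hrS, hry, hrx, hr1, hrz⟩ : ∃ r ∈ (S : Subgroup G), Commute r y ∧ Commute r x ∧
      r ≠ 1 ∧ r ≠ z := by
    by_cases hcx : Commute (c : G) x
    · exact ⟨c, c.2, hcyc, hcx, hc1, hcz⟩
    · refine ⟨c * y, mul_mem c.2 hyS, hcyc.mul_left (Commute.refl y), htwo _ c.2 hcx, fun e => ?_,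
        fun e => ?_⟩
      · rw [mul_eq_one_iff_eq_inv, inv_self hy] at e; exact hcy e
      · exact hczy (by rw [← e, mul_assoc, sq_one hy, mul_one])
  obtain ⟨n, hn⟩ : ∃ n, orderOf r = 2 ^ n := by
    obtain ⟨n, hn⟩ := (IsPGroup.iff_orderOf.mp S.2) ⟨r, hrS⟩
    exact ⟨n, by rwa [Subgroup.orderOf_mk] at hn⟩
  have hinv : ∀ w : G, orderOf w = 2 → Commute w x → Commute w y → w = z := by
    intro w hw hwx hwy
    rcases hlist w hw hwx.symm with e | e | e
    · exact absurd (e ▸ hwy) hxy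
    · exact e
    · exfalso
      refine hxy ?_
      have h1 : Commute (w * z) y := hwy.mul_left (hzc y hyS).symm
      rwa [e, mul_assoc, sq_one hz, mul_one] at h1
  have hn2 : 2 ≤ n := by
    by_contra hlt
    interval_cases n
    · exact hr1 (orderOf_eq_one_iff.mp (by rw [hn]; rfl))
    · exact hrz (hinv r (by rw [hn]; rfl) hrx hry)
  obtain ⟨m, rfl⟩ : ∃ m, n = m + 2 := ⟨n - 2, by omega⟩
  set q := r ^ 2 ^ m with hq
  have hq2 : orderOf (q * q) = 2 := by
    rw [hq, ← pow_add, ← two_mul, ← pow_succ', orderOf_pow' _ (by positivity), hn,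
      Nat.gcd_eq_right (pow_dvd_pow 2 (by omega)), Nat.pow_div (by omega) (by norm_num),
      show m + 2 - (m + 1) = 1 by omega, pow_one]
  have hqz : q * q = z :=
    hinv _ hq2 ((hrx.pow_left _).mul_left (hrx.pow_left _)) ((hry.pow_left _).mul_left (hry.pow_left _))
  have hqy : Commute q y := hry.pow_left _
  -- move `q` by an element sending `y` to `z`
  set d := g⁻¹ * q * g⁻¹⁻¹ with hd
  have hdz : Commute d z := by
    have := commute_conj g⁻¹ hqy
    rwa [← hd, hy_def, show g⁻¹ * (g * z * g⁻¹) * g⁻¹⁻¹ = z by group] at this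
  have hSC : (S : Subgroup G) ≤ Subgroup.centralizer ({z} : Set G) := fun s hs =>
    Subgroup.mem_centralizer_singleton_iff.mpr (hzc s hs).eq
  have hdC : d ∈ Subgroup.centralizer ({z} : Set G) :=
    Subgroup.mem_centralizer_singleton_iff.mpr hdz.eq
  have hdp : IsPGroup 2 (Subgroup.zpowers (⟨d, hdC⟩ : ↥(Subgroup.centralizer ({z} : Set G)))) := by
    refine IsPGroup.of_card (n := m + 2 - m) ?_
    rw [Nat.card_zpowers, Subgroup.orderOf_mk, hd, orderOf_conj', hq,
      orderOf_pow' _ (by positivity), hn, Nat.gcd_eq_right (pow_dvd_pow 2 (by omega)),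
      Nat.pow_div (by omega) (by norm_num)]
  obtain ⟨R, hR⟩ := hdp.exists_le_sylow
  obtain ⟨e, he⟩ := MulAction.exists_smul_eq ↥(Subgroup.centralizer ({z} : Set G)) R (S.subtype hSC)
  have hw : (e : G) * d * (e : G)⁻¹ ∈ (S : Subgroup G) := by
    have h1 : e * ⟨d, hdC⟩ * e⁻¹ ∈ ((S.subtype hSC : Sylow 2 _) : Subgroup _) := by
      rw [← he]
      exact ⟨_, hR (Subgroup.mem_zpowers _), rfl⟩
    exact h1
  set w := (e : G) * d * (e : G)⁻¹ with hwdef
  have hw2 : w * w = (e : G) * g⁻¹ * z * ((e : G) * g⁻¹)⁻¹ := by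
    have h1 : w * w = (e : G) * g⁻¹ * (q * q) * ((e : G) * g⁻¹)⁻¹ := by rw [hwdef, hd]; group
    rwa [hqz] at h1
  have hez : (e : G) * z * (e : G)⁻¹ = z := by
    rw [Subgroup.mem_centralizer_singleton_iff.mp e.2]; group
  rcases hlist (w * w) (by rw [hw2, orderOf_conj', hz]) (hsq w hw).symm with h | h | h
  · exact (hnz _).1 (hw2 ▸ h)
  · refine hyz ?_
    have h1 : (e : G) * g⁻¹ * z * ((e : G) * g⁻¹)⁻¹ = (e : G) * z * (e : G)⁻¹ := by
      rw [← hw2, h, hez]
    have h2 : g⁻¹ * z * g⁻¹⁻¹ = z := by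
      calc g⁻¹ * z * g⁻¹⁻¹ = (e : G)⁻¹ * ((e : G) * g⁻¹ * z * ((e : G) * g⁻¹)⁻¹) * e := by group
      _ = (e : G)⁻¹ * ((e : G) * z * (e : G)⁻¹) * e := by rw [h1]
      _ = z := by group
    rw [hy_def]
    calc g * z * g⁻¹ = g * (g⁻¹ * z * g⁻¹⁻¹) * g⁻¹ := by rw [h2]
    _ = z := by group
  · exact (hnz _).2 (hw2 ▸ h)

/-- Some Sylow 2-subgroup centralises a conjugate of `x`. -/
theorem not_noCentral [IsSimpleGroup G] (hna : ¬ IsMulCommutative G) {x : G}
    (hx : orderOf x = 2) (h3 : Three x) : ¬ NoCentral x := by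
  intro hns
  classical
  obtain ⟨S, hS⟩ := (IsPGroup.of_card (p := 2) (n := 1) (by rw [Nat.card_zpowers, hx, pow_one]) :
    IsPGroup 2 (Subgroup.zpowers x)).exists_le_sylow
  have hxS : x ∈ (S : Subgroup G) := hS (Subgroup.mem_zpowers x)
  obtain ⟨z, hzS, hz, hzc⟩ := exists_central_involution S hx hxS
  obtain ⟨hzx, hlist, hnz⟩ := local_facts hna S hx hns h3 hxS hz hzc
  have hxnc : ¬ ∀ s ∈ (S : Subgroup G), Commute s x := fun hall => hns 1 S fun s hs => by
    rw [one_mul, inv_one, mul_one, Subgroup.mem_centralizer_singleton_iff]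
    exact (hall s hs).eq
  set xS : ↥(S : Subgroup G) := ⟨x, hxS⟩ with hxSdef
  have hxSo : orderOf xS = 2 := by rw [hxSdef, Subgroup.orderOf_mk, hx]
  by_cases h4 : Nat.card (Subgroup.centralizer ({xS} : Set ↥(S : Subgroup G))) ≤ 4
  · refine card_centralizer_eq_four hna S hx hns hxS hx hxS (le_antisymm h4 ?_) hxnc
    set C := Subgroup.centralizer ({xS} : Set ↥(S : Subgroup G))
    obtain ⟨n, hn⟩ := IsPGroup.iff_card.mp (S.2.to_subgroup C)
    have h3' : 3 ≤ Nat.card C := by
      haveI := Fintype.ofFinite ↥C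
      rw [Nat.card_eq_fintype_card]
      refine Fintype.two_lt_card_iff.mpr ⟨1, ⟨xS, ?_⟩, ⟨⟨z, hzS⟩, ?_⟩, ?_, ?_, ?_⟩
      · exact Subgroup.mem_centralizer_singleton_iff.mpr rfl
      · exact Subgroup.mem_centralizer_singleton_iff.mpr (Subtype.ext (hzc x hxS).eq.symm)
      · exact fun e => ne_one hx (congrArg (fun q : ↥C => ((q : ↥(S : Subgroup G)) : G)) e).symm
      · exact fun e => ne_one hz (congrArg (fun q : ↥C => ((q : ↥(S : Subgroup G)) : G)) e).symm
      · exact fun e => hzx (congrArg (fun q : ↥C => ((q : ↥(S : Subgroup G)) : G)) e).symm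
    rw [hn] at h3' ⊢
    rcases n with _ | _ | n
    · norm_num at h3'
    · norm_num at h3'
    · exact le_trans (by norm_num) (Nat.pow_le_pow_right (by norm_num) (show 2 ≤ n + 2 by omega))
  push Not at h4
  have hxcen : xS ∉ Subgroup.center ↥(S : Subgroup G) := fun hc => hxnc fun s hs =>
    congrArg Subtype.val (Subgroup.mem_center_iff.mp hc ⟨s, hs⟩)
  obtain ⟨U, hUn, hU4, hUsq⟩ := exists_normal_four_of_noncentral S.2 hxSo hxcen h4
  have hUo : ∀ u ∈ U, u ≠ 1 → orderOf (u : G) = 2 := fun u hu h1 => by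
    rw [Subgroup.orderOf_coe]
    exact orderOf_eq_prime (by rw [pow_two, hUsq u hu]) h1
  -- `z` lies in `U`
  have hzU : (⟨z, hzS⟩ : ↥(S : Subgroup G)) ∈ U := by
    have hne : U ≠ ⊥ := fun e => by rw [e, Subgroup.card_bot] at hU4; omega
    obtain ⟨c, ⟨hcU, hcc⟩, hc1⟩ := (Subgroup.bot_or_exists_ne_one _).resolve_left
      (PGroup.inf_center_ne_bot S.2 U hne)
    have hcs : ∀ s ∈ (S : Subgroup G), Commute s (c : G) := fun s hs =>
      congrArg Subtype.val (Subgroup.mem_center_iff.mp hcc ⟨s, hs⟩)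
    rcases hlist c (hUo c hcU hc1) (hcs x hxS) with e | e | e
    · exact absurd (e ▸ hcs) hxnc
    · rwa [show (⟨z, hzS⟩ : ↥(S : Subgroup G)) = c from Subtype.ext e.symm]
    · exfalso
      refine hxnc fun s hs => ?_
      have h1 := (hcs s hs).mul_right (hzc s hs)
      rwa [e, mul_assoc, sq_one hz, mul_one] at h1
  obtain ⟨u, huU, hu1, huz⟩ : ∃ u : ↥(S : Subgroup G), u ∈ U ∧ u ≠ 1 ∧ (u : G) ≠ z := by
    by_contra hall
    push Not at hall
    haveI := Fintype.ofFinite ↥U
    have : Nat.card U ≤ 2 := by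
      rw [Nat.card_eq_fintype_card]
      refine le_trans (Fintype.card_le_of_injective
        (fun q : ↥U => decide ((q : ↥(S : Subgroup G)) = 1)) ?_) Fintype.card_bool.le
      intro a b e
      simp only [decide_eq_decide] at e
      refine Subtype.ext ?_
      by_cases ha : (a : ↥(S : Subgroup G)) = 1
      · rw [ha, e.mp ha]
      · exact Subtype.ext ((hall a a.2 ha).trans (hall b b.2 fun hb => ha (e.mpr hb)).symm)
    omega
  have huo : orderOf (u : G) = 2 := hUo u huU hu1
  have hzu : Commute z (u : G) := (hzc u u.2).symm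
  have hUlist : ∀ q ∈ U, (q : G) = 1 ∨ (q : G) = z ∨ (q : G) = u ∨ (q : G) = z * u := by
    intro q hq
    by_contra hcon
    push Not at hcon
    obtain ⟨q1, q2, q3, q4⟩ := hcon
    haveI := Fintype.ofFinite ↥U
    let f : Fin 5 → ↥U := ![1, ⟨_, hzU⟩, ⟨u, huU⟩, ⟨_, mul_mem hzU huU⟩, ⟨q, hq⟩]
    have e1 : z * (u : G) ≠ 1 := fun e => huz (by
      rw [mul_eq_one_iff_eq_inv, inv_self huo] at e; exact e.symm)
    have e2 : z * (u : G) ≠ z := fun e => ne_one huo (mul_left_cancel (a := z) (by rw [e, mul_one]))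
    have e3 : z * (u : G) ≠ (u : G) := fun e => ne_one hz (mul_right_cancel (b := (u : G)) (by rw [e, one_mul]))
    have hf : Function.Injective f := by
      intro i j e
      have e' := congrArg (fun w : ↥U => ((w : ↥(S : Subgroup G)) : G)) e
      fin_cases i <;> fin_cases j <;>
        simp [f, ne_one hz, (ne_one hz).symm, ne_one huo, (ne_one huo).symm, huz, huz.symm, e1,
          e1.symm, e2, e2.symm, e3, e3.symm, q1, Ne.symm q1, q2, Ne.symm q2, q3, Ne.symm q3, q4,
          Ne.symm q4] at e' ⊢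
    have := Fintype.card_le_of_injective f hf
    rw [Fintype.card_fin, ← Nat.card_eq_fintype_card, hU4] at this
    omega
  have hconj : ∀ s ∈ (S : Subgroup G), s * u * s⁻¹ = u ∨ s * u * s⁻¹ = z * u := by
    intro s hs
    have h1 := hUn.conj_mem u huU ⟨s, hs⟩
    rcases hUlist _ h1 with e | e | e | e <;> simp only [Subgroup.coe_mul, Subgroup.coe_inv] at e
    · exact absurd (conj_eq_one_iff.mp e) (ne_one huo)
    · refine absurd ?_ huz
      calc (u : G) = s⁻¹ * (s * u * s⁻¹) * s := by group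
      _ = s⁻¹ * (z * s) := by rw [e, mul_assoc]
      _ = z := by rw [← (hzc s hs).eq]; group
    · exact .inl e
    · exact .inr e
  have hnormal : ∀ v : G, orderOf v = 2 → Three v → NoCentral v → v ∈ (S : Subgroup G) →
      Commute v (u : G) → False := by
    intro v hv hv3 hvns hvS hvu
    obtain ⟨hzv, hvl, -⟩ := local_facts hna S hv hvns hv3 hvS hz hzc
    rcases hvl u huo hvu with e | e | e
    · refine contra_normal hna S hv hvns hv3 hvS hz hzS hzc fun s hs => ?_
      rw [← e]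
      rcases hconj s hs with h | h
      · exact .inl h
      · exact .inr (h.trans hzu.eq)
    · exact absurd e huz
    · have hv' : v = z * u := by
        rw [e, ← mul_assoc, ← (hzc v hvS).eq, mul_assoc, sq_one hz, mul_one]
      refine contra_normal hna S hv hvns hv3 hvS hz hzS hzc fun s hs => ?_
      have h0 : s * v * s⁻¹ = z * (s * u * s⁻¹) := by
        rw [hv', ← mul_assoc, (hzc s hs).eq]; group
      rcases hconj s hs with h | h
      · exact .inl (by rw [h0, h, ← hv'])
      · refine .inr ?_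
        rw [h0, h, ← hv', (hzc v hvS).eq]
  have hxu : ¬ Commute x (u : G) := hnormal x hx h3 hns hxS
  set M := Subgroup.centralizer ({u} : Set ↥(S : Subgroup G)) with hMdef
  have hmemM : ∀ s : ↥(S : Subgroup G), s ∈ M ↔ (s : G) * u * (s : G)⁻¹ = u := fun s => by
    rw [hMdef, Subgroup.mem_centralizer_singleton_iff, mul_inv_eq_iff_eq_mul, Subtype.ext_iff]
    rfl
  have hxu' : x * u * x⁻¹ = z * u := (hconj x hxS).resolve_left fun e =>
    hxu (mul_inv_eq_iff_eq_mul.mp e)
  have hMi : M.index = 2 := by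
    rw [Subgroup.index_eq_two_iff]
    refine ⟨xS, fun b => ?_⟩
    have hbx : ((b * xS : ↥(S : Subgroup G)) : G) * u * ((b * xS : ↥(S : Subgroup G)) : G)⁻¹ =
        z * ((b : G) * u * (b : G)⁻¹) := by
      simp only [Subgroup.coe_mul, hxSdef]
      rw [show (b : G) * x * u * ((b : G) * x)⁻¹ = (b : G) * (x * u * x⁻¹) * (b : G)⁻¹ by group,
        hxu', ← mul_assoc, (hzc b b.2).eq]
      group
    rw [hmemM, hmemM, hbx]
    rcases hconj b b.2 with h | h
    · refine Or.inr ⟨h, ?_⟩
      rw [h]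
      exact fun e => ne_one hz (mul_right_cancel (b := (u : G)) (by rw [e, one_mul]))
    · refine Or.inl ⟨?_, ?_⟩
      · rw [h, ← mul_assoc, sq_one hz, one_mul]
      · rw [h]
        exact fun e => ne_one hz (mul_right_cancel (b := (u : G)) (by rw [e, one_mul]))
  obtain ⟨g, hg, hgM⟩ := exists_conj_mem hna S M hMi hx hxS (fun hm => by
    rw [hmemM] at hm
    exact hxu (mul_inv_eq_iff_eq_mul.mp hm))
  refine hnormal (g * x * g⁻¹) (by rw [orderOf_conj', hx]) (three_conj h3 g) ?_ hg
    (mul_inv_eq_iff_eq_mul.mp ((hmemM _).mp hgM))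
  intro k T hT
  refine hns (k * g) T ?_
  rwa [show k * g * x * (k * g)⁻¹ = k * (g * x * g⁻¹) * k⁻¹ by group]

theorem sylow_le_and_isConj [IsSimpleGroup G] (x : G) (hx : orderOf x = 2)
    (h3 : Nat.card {u : ↥(Subgroup.centralizer ({x} : Set G)) // orderOf u = 2} ≤ 3) :
    (∃ S : Sylow 2 G, (S : Subgroup G) ≤ Subgroup.centralizer ({x} : Set G)) ∧
      ∀ u v : G, orderOf u = 2 → orderOf v = 2 → IsConj u v := by
  by_cases hna : IsMulCommutative G
  · have hcomm : ∀ a b : G, a * b = b * a := fun a b => hna.is_comm.comm a b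
    refine ⟨⟨default, fun s _ => Subgroup.mem_centralizer_singleton_iff.mpr (hcomm s x)⟩, ?_⟩
    have key : ∀ u : G, orderOf u = 2 → u = x := by
      intro u hu
      haveI : (Subgroup.zpowers x).Normal := ⟨fun a ha g => by
        rwa [hcomm g a, mul_inv_cancel_right]⟩
      have htop : Subgroup.zpowers x = ⊤ :=
        (IsSimpleGroup.eq_bot_or_eq_top_of_normal _ inferInstance).resolve_left
          fun e => ne_one hx (Subgroup.zpowers_eq_bot.mp e)
      obtain ⟨i, rfl⟩ := Subgroup.mem_zpowers_iff.mp (htop ▸ Subgroup.mem_top u)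
      rcases Int.even_or_odd' i with ⟨j, rfl | rfl⟩
      · rw [zpow_mul, zpow_two, sq_one hx, one_zpow] at hu
        exact absurd rfl (ne_one hu)
      · rw [zpow_add, zpow_mul, zpow_two, sq_one hx, one_zpow, one_mul, zpow_one]
    intro u v hu hv
    rw [key u hu, key v hv]
  · have hT := three_of_card hx h3
    have hnot := not_noCentral hna hx hT
    rw [NoCentral] at hnot
    push Not at hnot
    obtain ⟨g, S₀, hS₀⟩ := hnot
    set S : Sylow 2 G := g⁻¹ • S₀
    have hSC : ∀ s ∈ (S : Subgroup G), Commute s x := by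
      intro s hs
      rw [Sylow.coe_subgroup_smul, Subgroup.mem_pointwise_smul_iff_inv_smul_mem] at hs
      have h1 : g * s * g⁻¹ ∈ (S₀ : Subgroup G) := by simpa using hs
      have h2 := commute_conj g⁻¹
        (show Commute (g * s * g⁻¹) (g * x * g⁻¹) from
          Subgroup.mem_centralizer_singleton_iff.mp (hS₀ h1))
      rwa [show g⁻¹ * (g * s * g⁻¹) * g⁻¹⁻¹ = s by group,
        show g⁻¹ * (g * x * g⁻¹) * g⁻¹⁻¹ = x by group] at h2
    refine ⟨⟨S, fun s hs => Subgroup.mem_centralizer_singleton_iff.mpr (hSC s hs).eq⟩, ?_⟩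
    have hconj : ∀ w : G, orderOf w = 2 → IsConj x w := by
      intro w hw
      obtain ⟨T, hT'⟩ := (IsPGroup.of_card (p := 2) (n := 1) (by rw [Nat.card_zpowers, hw, pow_one]) :
        IsPGroup 2 (Subgroup.zpowers w)).exists_le_sylow
      obtain ⟨c, hc⟩ := MulAction.exists_smul_eq G T S
      have hb : c * w * c⁻¹ ∈ (S : Subgroup G) := by
        rw [← hc]
        exact ⟨w, hT' (Subgroup.mem_zpowers w), rfl⟩
      refine IsConj.trans ?_ (isConj_iff.mpr ⟨c⁻¹, by group⟩ : IsConj (c * w * c⁻¹) w)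
      set b := c * w * c⁻¹ with hbdef
      have hbo : orderOf b = 2 := by rw [hbdef, orderOf_conj', hw]
      by_contra hnb
      have hbx : b ≠ x := fun e => hnb (e ▸ IsConj.refl _)
      have hxb : Commute x b := (hSC b hb).symm
      obtain ⟨k, hkS, hk⟩ := exists_fused hna S hbo
      obtain ⟨l, hlS, hl⟩ := exists_fused hna S hx
      have hconjk : IsConj b (k * b * k⁻¹) := isConj_iff.mpr ⟨k, rfl⟩
      have hconjl : IsConj x (l * x * l⁻¹) := isConj_iff.mpr ⟨l, rfl⟩
      rcases hT b (l * x * l⁻¹) hbo (by rw [orderOf_conj', hx]) hxb (hSC _ hlS).symm hbx with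
        e | e | e
      · exact hl e
      · exact hnb (e ▸ hconjl)
      rcases hT b (k * b * k⁻¹) hbo (by rw [orderOf_conj', hbo]) hxb (hSC _ hkS).symm hbx with
        e' | e' | e'
      · rw [e'] at hconjk
        exact hnb hconjk.symm
      · exact hk e'
      · rw [e'] at hconjk
        rw [e] at hconjl
        exact hnb (hconjl.trans hconjk.symm)
    intro u v hu hv
    exact (hconj u hu).symm.trans (hconj v hv)

end CfsgLib.ThreeInvolutions
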